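import Mathlib
import Cfsg.Agent.Lib.Helper25.ACStmt
import Cfsg.Agent.Lib.Helper25.ACOddStmt

set_option autoImplicit false

/-!
# S3911 / CYCSTEP (helper25's call), second seat helper19

`main : CycStep`: in a `p`-group whose proper subgroups are cyclic and whose elements of order `p`
lie in a subgroup `N`, every commutator lies in `N`.  Route: `c = a (b a b⁻¹)⁻¹`; `a` and
`b a b⁻¹` lie in a normal subgroup of index `p`, hence commute; `a ^ p` and `b` lie in a normal
subgroup of index `p`, hence commute; so `c ^ p = a ^ p (b a ^ p b⁻¹)⁻¹ = 1`.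
-/

namespace Cfsg.Agent.Lib.Helper19.AOCYCSTEP

open Cfsg.Agent.Lib.Helper25.ACStmt Cfsg.Agent.Lib.Helper25.ACOddStmt

universe u

/-- In a finite `p`-group every non-generating element lies in a normal subgroup of index `p`. -/
theorem exists_normal_index_p {P : Type u} [Group P] [Finite P] {p : ℕ} [Fact p.Prime]
    (hP : IsPGroup p P) (x : P) (hx : Subgroup.zpowers x ≠ ⊤) :
    ∃ M : Subgroup P, M.Normal ∧ M.index = p ∧ x ∈ M := by
  have hp : p.Prime := Fact.out
  obtain ⟨N, hN⟩ := hP.exists_card_eq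
  obtain ⟨n, hn⟩ := (hP.to_subgroup (Subgroup.zpowers x)).exists_card_eq
  have hlt : n < N := by
    have hle : Nat.card (Subgroup.zpowers x) ≤ Nat.card P := Subgroup.card_le_card_group _
    have hne : Nat.card (Subgroup.zpowers x) ≠ Nat.card P :=
      fun h => hx (Subgroup.eq_top_of_card_eq _ h)
    rw [hn, hN] at hle hne
    have h1 : n ≤ N := (Nat.pow_le_pow_iff_right hp.one_lt).mp hle
    rcases h1.lt_or_eq with h | h
    · exact h
    · exact absurd (by rw [h]) hne
  obtain ⟨K, hK, hle⟩ := Sylow.exists_subgroup_card_pow_prime_le p (n := n) (m := N - 1)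
    (by rw [hN]; exact pow_dvd_pow p (Nat.sub_le N 1)) (Subgroup.zpowers x) hn (by omega)
  have hidx : K.index = p := by
    have h1 := K.card_mul_index
    rw [hK, hN] at h1
    have h2 : p ^ N = p ^ (N - 1) * p := by
      rw [← pow_succ]; congr 1; omega
    rw [h2] at h1
    exact Nat.eq_of_mul_eq_mul_left (pow_pos hp.pos _) h1
  refine ⟨K, ?_, hidx, hle (Subgroup.mem_zpowers x)⟩
  apply Subgroup.normal_of_index_eq_minFac_card
  rw [hidx, hN]
  exact (hp.pow_minFac (by omega)).symm

theorem main : CycStep.{u} := by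
  intro P _ _ p _ hp2 hP N hN hNall hcyc a b
  have hp : p.Prime := Fact.out
  have key : ∀ c : P, c ^ p = 1 → c ∈ N := by
    intro c hc
    by_cases h1 : c = 1
    · rw [h1]; exact N.one_mem
    · exact hNall c (orderOf_eq_prime hc h1)
  have comm_of_cyc : ∀ x : P, Subgroup.zpowers x = ⊤ → a * b * a⁻¹ * b⁻¹ ∈ N := by
    intro x hx
    have hab : a * b = b * a := by
      obtain ⟨i, rfl⟩ := Subgroup.mem_zpowers_iff.mp (hx ▸ Subgroup.mem_top a)
      obtain ⟨j, rfl⟩ := Subgroup.mem_zpowers_iff.mp (hx ▸ Subgroup.mem_top b)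
      rw [← zpow_add, ← zpow_add, add_comm]
    have h1 : a * b * a⁻¹ * b⁻¹ = 1 := by rw [hab]; group
    rw [h1]; exact N.one_mem
  by_cases ha : Subgroup.zpowers a = ⊤
  · exact comm_of_cyc a ha
  by_cases hb : Subgroup.zpowers b = ⊤
  · exact comm_of_cyc b hb
  obtain ⟨Mb, hMbn, hMbi, hbM⟩ := exists_normal_index_p hP b hb
  obtain ⟨Ma, hMan, hMai, haM⟩ := exists_normal_index_p hP a ha
  have comm_in : ∀ (M : Subgroup P), M.index = p → ∀ x y : P, x ∈ M → y ∈ M →
      x * y = y * x := by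
    intro M hM x y hx hy
    have hne : Subgroup.closure ({x, y} : Set P) ≠ ⊤ := by
      intro htop
      have hle : Subgroup.closure ({x, y} : Set P) ≤ M := (Subgroup.closure_le M).mpr (by
        intro z hz
        rcases hz with rfl | rfl
        · exact hx
        · exact hy)
      rw [htop] at hle
      have hMt : M = ⊤ := top_le_iff.mp hle
      rw [hMt, Subgroup.index_top] at hM
      exact hp.one_lt.ne hM
    have hcy := hcyc _ hne
    have hxm : x ∈ Subgroup.closure ({x, y} : Set P) := Subgroup.subset_closure (by simp)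
    have hym : y ∈ Subgroup.closure ({x, y} : Set P) := Subgroup.subset_closure (by simp)
    obtain ⟨g, hg⟩ := IsCyclic.exists_generator (α := ↥(Subgroup.closure ({x, y} : Set P)))
    obtain ⟨i, hi⟩ := Subgroup.mem_zpowers_iff.mp (hg ⟨x, hxm⟩)
    obtain ⟨j, hj⟩ := Subgroup.mem_zpowers_iff.mp (hg ⟨y, hym⟩)
    have h1 : (⟨x, hxm⟩ : ↥(Subgroup.closure ({x, y} : Set P))) * ⟨y, hym⟩ =
        ⟨y, hym⟩ * ⟨x, hxm⟩ := by
      rw [← hi, ← hj, ← zpow_add, ← zpow_add, add_comm]
    exact congrArg Subtype.val h1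
  have h3 : a ^ p * b = b * a ^ p := by
    apply comm_in Mb hMbi _ _ _ hbM
    have h1 := Mb.pow_index_mem a
    rwa [hMbi] at h1
  have h4 : a * (b * a * b⁻¹) = (b * a * b⁻¹) * a :=
    comm_in Ma hMai _ _ haM (hMan.conj_mem a haM b)
  apply key
  have hc : a * b * a⁻¹ * b⁻¹ = a * (b * a * b⁻¹)⁻¹ := by group
  have hcomm : Commute a (b * a * b⁻¹)⁻¹ := Commute.inv_right h4
  have h5 : (b * a * b⁻¹) ^ p = a ^ p := by
    rw [conj_pow, ← h3, mul_inv_cancel_right]
  rw [hc, hcomm.mul_pow, inv_pow, h5, mul_inv_cancel]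

end Cfsg.Agent.Lib.Helper19.AOCYCSTEP
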