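import Mathlib
import Cfsg.Agent.Lib.Helper1.PDStmt

set_option autoImplicit false

/-!
# S4020 / ODDCASE (helper1's call), second seat helper19

`main (hE : EvenCore) : OddCase`: a normal subgroup `N` of odd order meeting a Sylow subgroup `P` of
order `p ^ 3` and exponent `p` forces `P` to be abelian (Frattini argument + `EvenCore` inside `↥N`).
-/

namespace Cfsg.Agent.Lib.Helper19.PDODDCASE

open Cfsg.Agent.Lib.Helper1.PDStmt

universe u

theorem zp_isPGroup {G : Type u} [Group G] {p : ℕ} [Fact p.Prime] {x : G} (hx : orderOf x = p) :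
    IsPGroup p ↥(Subgroup.zpowers x) := by
  apply IsPGroup.of_card (n := 1)
  rw [Nat.card_zpowers, hx, pow_one]

theorem main (hE : EvenCore.{u}) : OddCase.{u} := by
  intro G _ _ hD N hNn hodd p _ P hcard hexp hPN a₀ ha₀ b hb
  by_contra hab
  have hp : p.Prime := Fact.out
  -- an element `n₀ ≠ 1` of `P ⊓ N`
  obtain ⟨n₀, hn₀, hn₀1⟩ : ∃ n₀ ∈ (P : Subgroup G) ⊓ N, n₀ ≠ 1 := by
    by_contra hcon
    push Not at hcon
    apply hPN
    rw [Subgroup.eq_bot_iff_forall]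
    exact hcon
  have hn₀P : n₀ ∈ (P : Subgroup G) := hn₀.1
  have hn₀N : n₀ ∈ N := hn₀.2
  have hon₀ : orderOf n₀ = p := orderOf_eq_prime (hexp n₀ hn₀P) hn₀1
  -- `p ≠ 2`
  have hpN : p ∣ Nat.card ↥N := by
    have h1 : orderOf (⟨n₀, hn₀N⟩ : ↥N) ∣ Nat.card ↥N := orderOf_dvd_natCard _
    rwa [Subgroup.orderOf_mk, hon₀] at h1
  have hp2 : p ≠ 2 := by
    rintro rfl
    exact (Nat.not_even_iff_odd.mpr hodd) (even_iff_two_dvd.mpr hpN)
  -- `P ≤ N`
  have hPleN : (P : Subgroup G) ≤ N := by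
    intro x hx
    by_cases hx1 : x = 1
    · rw [hx1]; exact N.one_mem
    · have hox : orderOf x = p := orderOf_eq_prime (hexp x hx) hx1
      obtain ⟨g, hg⟩ := hD p hp (Subgroup.zpowers n₀) (Subgroup.zpowers x) (zp_isPGroup hon₀)
        (zp_isPGroup hox) (by rw [Nat.card_zpowers, Nat.card_zpowers, hon₀, hox])
      have hxm : x ∈ Subgroup.zpowers x := Subgroup.mem_zpowers x
      rw [hg] at hxm
      obtain ⟨y, hy, rfl⟩ := Subgroup.mem_map.mp hxm
      have hyN : y ∈ N := (Subgroup.zpowers_le.mpr hn₀N) hy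
      simp only [MulEquiv.coe_toMonoidHom, MulAut.conj_apply]
      exact hNn.conj_mem y hyN g
  -- a central element `z ≠ 1` of `P`
  have : Nontrivial ↥(P : Subgroup G) := by
    rw [← Finite.one_lt_card_iff_nontrivial, hcard]
    exact Nat.one_lt_pow (by norm_num) hp.one_lt
  have hPp : IsPGroup p ↥(P : Subgroup G) := P.isPGroup'
  have := hPp.center_nontrivial
  obtain ⟨⟨zP, hzPc⟩, hzc1⟩ := exists_ne (1 : Subgroup.center ↥(P : Subgroup G))
  have hzP : (zP : G) ∈ (P : Subgroup G) := zP.2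
  have hz1 : (zP : G) ≠ 1 := by
    intro hcon
    apply hzc1
    apply Subtype.ext
    apply Subtype.ext
    exact hcon
  have hzc : ∀ x ∈ (P : Subgroup G), x * (zP : G) = (zP : G) * x := by
    intro x hx
    have := Subgroup.mem_center_iff.mp hzPc ⟨x, hx⟩
    exact congrArg Subtype.val this
  have hoz : orderOf (zP : G) = p := orderOf_eq_prime (hexp _ hzP) hz1
  have hb1 : b ≠ 1 := by
    rintro rfl
    exact hab (by rw [mul_one, one_mul])
  have hob : orderOf b = p := orderOf_eq_prime (hexp b hb) hb1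
  obtain ⟨g, hg⟩ := hD p hp (Subgroup.zpowers (zP : G)) (Subgroup.zpowers b) (zp_isPGroup hoz)
    (zp_isPGroup hob) (by rw [Nat.card_zpowers, Nat.card_zpowers, hoz, hob])
  -- Frattini
  have hfr : N ⊔ Subgroup.normalizer ((P : Subgroup G) : Set G) = ⊤ := by
    have h1 := Sylow.normalizer_sup_eq_top (P.subtype hPleN)
    rw [Sylow.coe_subtype, Subgroup.subgroupOf_map_subtype, inf_of_le_left hPleN] at h1
    rw [sup_comm]; exact h1
  have hgm : g ∈ ((N ⊔ Subgroup.normalizer ((P : Subgroup G) : Set G) : Subgroup G) : Set G) := by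
    rw [hfr]; exact Set.mem_univ g
  rw [Subgroup.normal_mul] at hgm
  obtain ⟨n', hn', h, hh, rfl⟩ := Set.mem_mul.mp hgm
  have hh' : ∀ x, x ∈ (P : Subgroup G) ↔ h * x * h⁻¹ ∈ (P : Subgroup G) :=
    fun x => Subgroup.mem_normalizer_iff.mp hh x
  have hz'P : h * (zP : G) * h⁻¹ ∈ (P : Subgroup G) := (hh' _).mp hzP
  have hz'1 : h * (zP : G) * h⁻¹ ≠ 1 := by
    intro hcon
    apply hz1
    have : (zP : G) = h⁻¹ * (h * (zP : G) * h⁻¹) * h := by group
    rw [this, hcon]; group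
  have hz'c : ∀ x ∈ (P : Subgroup G), x * (h * (zP : G) * h⁻¹) = h * (zP : G) * h⁻¹ * x := by
    intro x hx
    have hx' : h⁻¹ * x * h ∈ (P : Subgroup G) := by
      rw [hh' (h⁻¹ * x * h)]
      have : h * (h⁻¹ * x * h) * h⁻¹ = x := by group
      rw [this]; exact hx
    have hc := hzc (h⁻¹ * x * h) hx'
    calc x * (h * (zP : G) * h⁻¹) = h * ((h⁻¹ * x * h) * (zP : G)) * h⁻¹ := by group
      _ = h * ((zP : G) * (h⁻¹ * x * h)) * h⁻¹ := by rw [hc]
      _ = h * (zP : G) * h⁻¹ * x := by group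
  -- inside `↥N`
  have hzN' : h * (zP : G) * h⁻¹ ∈ N := hPleN hz'P
  have hbN : b ∈ N := hPleN hb
  have ha₀N : a₀ ∈ N := hPleN ha₀
  have hmemPN : ∀ y : ↥N, y ∈ ((P.subtype hPleN : Sylow p ↥N) : Subgroup ↥N) ↔
      (y : G) ∈ (P : Subgroup G) := by
    intro y
    rw [Sylow.coe_subtype, Subgroup.mem_subgroupOf]
  have hcardPN : Nat.card ↥((P.subtype hPleN : Sylow p ↥N) : Subgroup ↥N) = p ^ 3 := by
    rw [← hcard, Sylow.coe_subtype]
    exact Nat.card_congr (Subgroup.subgroupOfEquivOfLe hPleN).toEquiv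
  have hconjN : Subgroup.zpowers (⟨b, hbN⟩ : ↥N) =
      (Subgroup.zpowers (⟨h * (zP : G) * h⁻¹, hzN'⟩ : ↥N)).map
        (MulAut.conj (⟨n', hn'⟩ : ↥N)).toMonoidHom := by
    apply Subgroup.map_injective (Subgroup.subtype_injective N)
    have e1 : (N.subtype.comp (MulAut.conj (⟨n', hn'⟩ : ↥N)).toMonoidHom)
        ⟨h * (zP : G) * h⁻¹, hzN'⟩ = (MulAut.conj (n' * h)).toMonoidHom (zP : G) := by
      simp [mul_assoc]
    rw [Subgroup.map_map]
    simp only [MonoidHom.map_zpowers]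
    rw [e1]
    simp only [Subgroup.subtype_apply]
    rw [hg, MonoidHom.map_zpowers]
  obtain ⟨q, hq⟩ := hE ↥N p hp2 (P.subtype hPleN) hcardPN
    (fun x hx => Subtype.ext (by simpa using hexp x.1 ((hmemPN x).mp hx)))
    ⟨h * (zP : G) * h⁻¹, hzN'⟩ ((hmemPN _).mpr hz'P)
    (fun hcon => hz'1 (congrArg Subtype.val hcon))
    (fun x hx => Subtype.ext (hz'c x.1 ((hmemPN x).mp hx)))
    ⟨b, hbN⟩ ((hmemPN _).mpr hb)
    ⟨⟨a₀, ha₀N⟩, (hmemPN _).mpr ha₀, fun hcon => hab (congrArg Subtype.val hcon)⟩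
    ⟨⟨n', hn'⟩, hconjN⟩
  have h4 : 4 ∣ Nat.card ↥N := hq ▸ orderOf_dvd_natCard q
  have h2 : 2 ∣ Nat.card ↥N := dvd_trans (by norm_num) h4
  exact (Nat.not_even_iff_odd.mpr hodd) (even_iff_two_dvd.mpr h2)

end Cfsg.Agent.Lib.Helper19.PDODDCASE
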